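import Cfsg.Agent.H665.RIM.Defs

/-!
# Modules for `2^{1+4} : 5` in characteristic `5` (helper315, for S4816)

`v i` (`i` modulo 5) involutions with `v i v j = z v j v i`, product `1`, permuted cyclically by `f`, `v 0` conjugate to `z`
in `H`, `V` an `F_5 H`-module with `z` acting nontrivially: `|V : C_V(f)| ≥ 5 ^ 5` (`card_fix`). If the number of Sylow
5-subgroups of `H` is less than `5 ^ 5`, some orbit of `H` on `V` has size divisible by 5 (`noPEx`).
-/

set_option autoImplicit false

namespace Cfsg.Agent.H315.RIM.Heis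

universe u w

/-- the situation -/
structure Dt {H : Type u} [Group H] (z f : H) (v : ZMod 5 → H) : Prop where
  zz : z * z = 1
  vv : ∀ i, v i * v i = 1
  vz : ∀ i, v i * z = z * v i
  fz : f * z = z * f
  anti : ∀ i j, i ≠ j → v i * v j = z * (v j * v i)
  prod : v 0 * v 1 * v 2 * v 3 * v 4 = 1
  fv : ∀ i, f * v i = v (i + 1) * f
  conj : IsConj z (v 0)

section

variable {H : Type u} [Group H] {z f : H} {v : ZMod 5 → H} {V : Type w} [AddCommGroup V] [DistribMulAction H V]

theorem eq_zero_of_add (h5 : ∀ x : V, 5 • x = 0) {x : V} (h : x + x = 0) : x = 0 := by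
  have h1 : (5 : ℕ) • x = (x + x) + (x + x) + x := by
    rw [show (5 : ℕ) = 1 + 1 + (1 + 1) + 1 from rfl]
    simp only [add_smul, one_smul]
  rw [h5, h] at h1
  simpa using h1.symm

theorem ss {g : H} (hg : g * g = 1) (x : V) : g • g • x = x := by rw [← mul_smul, hg, one_smul]

/-- commutation on `C_V(z)` -/
theorem Dt.comm (D : Dt z f v) (i j : ZMod 5) {x : V} (hx : z • x = x) : v i • v j • x = v j • v i • x := by
  by_cases h : i = j
  · rw [h]
  · rw [← mul_smul, D.anti i j h, mul_smul, mul_smul]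
    have h1 : z • v j • v i • x = v j • v i • z • x := by
      rw [← mul_smul, ← mul_smul, ← mul_smul, ← mul_smul]
      congr 1
      calc z * v j * v i = v j * z * v i := by rw [D.vz]
        _ = v j * (z * v i) := mul_assoc _ _ _
        _ = v j * (v i * z) := by rw [D.vz]
        _ = v j * v i * z := (mul_assoc _ _ _).symm
    rw [h1, hx]

theorem Dt.vplus (D : Dt z f v) (i : ZMod 5) {x : V} (hx : z • x = x) : z • v i • x = v i • x := by
  rw [← mul_smul, ← D.vz, mul_smul, hx]

theorem Dt.vminus (D : Dt z f v) (i : ZMod 5) {x : V} (hx : z • x = -x) : z • v i • x = -(v i • x) := by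
  rw [← mul_smul, ← D.vz, mul_smul, hx, smul_neg]

/-- a vector inverted by `z` -/
theorem Dt.exists_minus (D : Dt z f v) (hz : ∃ x : V, z • x ≠ x) : ∃ x : V, x ≠ 0 ∧ z • x = -x := by
  obtain ⟨x, hx⟩ := hz
  refine ⟨x - z • x, sub_ne_zero.2 (Ne.symm hx), ?_⟩
  rw [smul_sub, ss D.zz, neg_sub]

/-- `f` moves a vector inverted by `z` -/
theorem Dt.exists_moved (D : Dt z f v) (h5 : ∀ x : V, 5 • x = 0) (hz : ∃ x : V, z • x ≠ x) :
    ∃ x : V, z • x = -x ∧ f • x ≠ x := by
  by_contra hcon
  push Not at hcon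
  obtain ⟨x, hx0, hx⟩ := D.exists_minus hz
  have h1 : ∀ y : V, z • y = -y → v 1 • y = v 0 • y := by
    intro y hy
    have h2 : f • v 0 • y = v 1 • f • y := by
      rw [← mul_smul, D.fv, mul_smul]
      rfl
    rw [hcon y hy, hcon _ (D.vminus 0 hy)] at h2
    exact h2.symm
  have h3 : v 0 • v 1 • x = z • v 1 • v 0 • x := by
    rw [← mul_smul, D.anti 0 1 (by decide), mul_smul, mul_smul]
  rw [h1 x hx, h1 _ (D.vminus 0 hx), ss (D.vv 0), hx] at h3
  apply hx0
  apply eq_zero_of_add h5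
  nth_rewrite 1 [h3]
  exact neg_add_cancel x

/-- `v 0` moves a vector fixed by `z` -/
theorem Dt.exists_neg (D : Dt z f v) [Finite V] (h5 : ∀ x : V, 5 • x = 0) (hz : ∃ x : V, z • x ≠ x) :
    ∃ x : V, x ≠ 0 ∧ z • x = x ∧ v 0 • x = -x := by
  obtain ⟨c, hc⟩ := isConj_iff.1 D.conj
  -- not all the vectors fixed by `z` are fixed by `v 0`
  have key : ∃ x : V, z • x = x ∧ v 0 • x ≠ x := by
    by_contra hcon
    push Not at hcon
    obtain ⟨x, hx0, hx⟩ := D.exists_minus hz
    have hsub : {x : V | z • x = x} ⊆ {x : V | v 0 • x = x} := hcon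
    have hf1 : ∀ y : V, v 0 • y = y → z • c⁻¹ • y = c⁻¹ • y := by
      intro y h1
      rw [← hc] at h1
      calc z • c⁻¹ • y = c⁻¹ • (c * z * c⁻¹) • y := by
            rw [← mul_smul, ← mul_smul]; congr 1; group
        _ = c⁻¹ • y := by rw [h1]
    have hf2 : ∀ y : V, z • y = y → v 0 • c • y = c • y := by
      intro y h1
      rw [← hc]
      calc (c * z * c⁻¹) • c • y = c • z • y := by
            rw [← mul_smul, ← mul_smul]; congr 1; group
        _ = c • y := by rw [h1]
    have hcard : Nat.card {x : V | v 0 • x = x} = Nat.card {x : V | z • x = x} :=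
      Nat.card_congr
        { toFun := fun x => ⟨c⁻¹ • x.1, hf1 _ x.2⟩
          invFun := fun x => ⟨c • x.1, hf2 _ x.2⟩
          left_inv := fun x => Subtype.ext (smul_inv_smul c x.1)
          right_inv := fun x => Subtype.ext (inv_smul_smul c x.1) }
    have heq : {x : V | z • x = x} = {x : V | v 0 • x = x} := by
      refine Set.eq_of_subset_of_ncard_le hsub ?_ (Set.toFinite _)
      exact hcard.le
    -- a vector inverted by `z` and fixed by `v 0`
    have h2 : ∀ y : V, z • y = -y → v 0 • y = y → y = 0 := by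
      intro y hy hy0
      have h3 : y ∈ {x : V | z • x = x} := by rw [heq]; exact hy0
      have h4 : z • y = y := h3
      rw [hy] at h4
      apply eq_zero_of_add h5
      nth_rewrite 1 [← h4]
      exact neg_add_cancel y
    have h3 : v 0 • x = -x := by
      have h4 := h2 (x + v 0 • x) (by rw [smul_add, hx, D.vminus 0 hx, neg_add]) (by
        rw [smul_add, ss (D.vv 0), add_comm])
      exact (neg_eq_of_add_eq_zero_right h4).symm
    have h4 : v 0 • v 1 • x = v 1 • x := by
      rw [← mul_smul, D.anti 0 1 (by decide), mul_smul, mul_smul, h3, smul_neg, smul_neg, D.vminus 1 hx, neg_neg]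
    have h5' := h2 (v 1 • x) (D.vminus 1 hx) h4
    apply hx0
    have h6 := congrArg (fun y => v 1 • y) h5'
    simpa [ss (D.vv 1)] using h6
  obtain ⟨x, hx, hx0⟩ := key
  refine ⟨x - v 0 • x, sub_ne_zero.2 (Ne.symm hx0), ?_, ?_⟩
  · rw [smul_sub, hx, D.vplus 0 hx]
  · rw [smul_sub, ss (D.vv 0), neg_sub]

/-- a weight vector -/
theorem Dt.exists_weight (D : Dt z f v) [Finite V] (h5 : ∀ x : V, 5 • x = 0) (hz : ∃ x : V, z • x ≠ x) :
    ∃ x : V, x ≠ 0 ∧ z • x = x ∧ v 0 • x = -x ∧ ∀ i, v i • x = x ∨ v i • x = -x := by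
  have ref : ∀ n : ℕ, ∃ b : V, b ≠ 0 ∧ z • b = b ∧ v 0 • b = -b ∧
      ∀ j : ℕ, j < n → v (j : ZMod 5) • b = b ∨ v (j : ZMod 5) • b = -b := by
    intro n
    induction n with
    | zero =>
      obtain ⟨x, h1, h2, h3⟩ := D.exists_neg h5 hz
      exact ⟨x, h1, h2, h3, fun j hj => absurd hj (Nat.not_lt_zero j)⟩
    | succ n ih =>
      obtain ⟨b, hb0, hb, hb1, hb2⟩ := ih
      by_cases h : b + v (n : ZMod 5) • b = 0
      · refine ⟨b, hb0, hb, hb1, fun j hj => ?_⟩
        rcases Nat.lt_succ_iff_lt_or_eq.1 hj with h3 | h3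
        · exact hb2 j h3
        · right
          rw [h3]
          exact (neg_eq_of_add_eq_zero_right h).symm
      · refine ⟨b + v (n : ZMod 5) • b, h, ?_, ?_, fun j hj => ?_⟩
        · rw [smul_add, hb, D.vplus _ hb]
        · rw [smul_add, D.comm 0 _ hb, hb1, smul_neg, neg_add]
        · rcases Nat.lt_succ_iff_lt_or_eq.1 hj with h3 | h3
          · rcases hb2 j h3 with h4 | h4
            · left
              rw [smul_add, D.comm _ _ hb, h4]
            · right
              rw [smul_add, D.comm _ _ hb, h4, smul_neg, neg_add]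
          · left
            rw [h3, smul_add, ss (D.vv _), add_comm]
  obtain ⟨b, hb0, hb, hb1, hb2⟩ := ref 5
  refine ⟨b, hb0, hb, hb1, fun i => ?_⟩
  have h1 := hb2 i.val (ZMod.val_lt i)
  rwa [ZMod.natCast_zmod_val] at h1

end

theorem val_succ : ∀ k : ZMod 5, k ≠ 4 → (k + 1).val = k.val + 1 := by decide
theorem ne04 : (0 : ZMod 5) ≠ 4 := by decide
theorem ne14 : (1 : ZMod 5) ≠ 4 := by decide
theorem ne24 : (2 : ZMod 5) ≠ 4 := by decide
theorem ne34 : (3 : ZMod 5) ≠ 4 := by decide

/-- the sums of signs -/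
theorem sum_ne (s : ZMod 5 → ZMod 5) (hs : ∀ i, s i = 1 ∨ s i = -1) (h0 : s 0 = -1)
    (hp : s 0 * s 1 * s 2 * s 3 * s 4 = 1) : s 0 + s 1 + s 2 + s 3 + s 4 ≠ 0 := by
  have h1 := hs 1
  have h2 := hs 2
  have h3 := hs 3
  have h4 := hs 4
  generalize s 0 = a0 at *
  generalize s 1 = a1 at *
  generalize s 2 = a2 at *
  generalize s 3 = a3 at *
  generalize s 4 = a4 at *
  subst h0
  rcases h1 with rfl | rfl <;> rcases h2 with rfl | rfl <;> rcases h3 with rfl | rfl <;> rcases h4 with rfl | rfl <;>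
    revert hp <;> decide

section

variable {H : Type u} [Group H] {z f : H} {v : ZMod 5 → H} {V : Type w} [AddCommGroup V] [DistribMulAction H V]

theorem Dt.pow (D : Dt z f v) (k : ℕ) (i : ZMod 5) : f ^ k * v i = v (i + k) * f ^ k := by
  induction k with
  | zero => simp
  | succ k ih =>
    rw [pow_succ', mul_assoc, ih, ← mul_assoc, D.fv, mul_assoc]
    congr 2
    push_cast
    ring

/-- **`|V : C_V(f)| ≥ 5 ^ 5`** -/
theorem Dt.card_fix (D : Dt z f v) [Finite V] (h5 : ∀ x : V, 5 • x = 0) (hz : ∃ x : V, z • x ≠ x) :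
    Nat.card {x : V // f • x = x} * 5 ^ 5 ≤ Nat.card V := by
  have : Fact (Nat.Prime 5) := ⟨by norm_num⟩
  let _ : Module (ZMod 5) V := AddCommGroup.zmodModule h5
  let T : H → Module.End (ZMod 5) V := fun h => (DistribSMul.toAddMonoidHom V h).toZModLinearMap 5
  have hT : ∀ h x, T h x = h • x := fun h x => rfl
  have hsm : ∀ (h : H) (c : ZMod 5) (x : V), h • (c • x) = c • (h • x) := fun h c x => (T h).map_smul c x
  obtain ⟨b, hb0, hb, hb1, hb2⟩ := D.exists_weight h5 hz
  obtain ⟨w₀, hw, hw1⟩ := D.exists_moved h5 hz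
  -- the signs
  have hs : ∀ i, ∃ c : ZMod 5, (c = 1 ∨ c = -1) ∧ v i • b = c • b := by
    intro i
    rcases hb2 i with h | h
    · exact ⟨1, Or.inl rfl, by rw [h, one_smul]⟩
    · exact ⟨-1, Or.inr rfl, by rw [h, neg_smul, one_smul]⟩
  choose s hs1 hs2 using hs
  have hcan : ∀ c c' : ZMod 5, c • b = c' • b → c = c' := by
    intro c c' h
    have h1 : (c - c') • b = 0 := by rw [sub_smul, h, sub_self]
    rcases smul_eq_zero.1 h1 with h2 | h2
    · exact sub_eq_zero.1 h2
    · exact absurd h2 hb0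
  have h0 : s 0 = -1 := hcan _ _ (by rw [← hs2, hb1, neg_smul, one_smul])
  have hp : s 0 * s 1 * s 2 * s 3 * s 4 = 1 := by
    have h1 : (v 0 * v 1 * v 2 * v 3 * v 4) • b = b := by rw [D.prod, one_smul]
    have h2 : (v 0 * v 1 * v 2 * v 3 * v 4) • b = (s 4 * (s 3 * (s 2 * (s 1 * s 0)))) • b := by
      rw [mul_smul, mul_smul, mul_smul, mul_smul, hs2 4, hsm (v 3), hs2 3, hsm (v 2), hsm (v 2), hs2 2, hsm (v 1),
        hsm (v 1), hsm (v 1), hs2 1, hsm (v 0), hsm (v 0), hsm (v 0), hsm (v 0), hs2 0]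
      simp only [smul_smul]
    have h3 := hcan _ 1 (by rw [← h2, h1, one_smul])
    calc s 0 * s 1 * s 2 * s 3 * s 4 = s 4 * (s 3 * (s 2 * (s 1 * s 0))) := by ring
      _ = 1 := h3
  have hσ := sum_ne s hs1 h0 hp
  -- the translates of the weight vector
  let bb : ZMod 5 → V := fun k => f ^ k.val • b
  have hbb : ∀ i k, v i • bb k = s (i - k) • bb k := by
    intro i k
    have h1 := D.pow k.val (i - k)
    rw [ZMod.natCast_zmod_val, sub_add_cancel] at h1
    show v i • f ^ k.val • b = s (i - k) • f ^ k.val • b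
    rw [← mul_smul, ← h1, mul_smul, hs2, hsm]
  have hbb0 : ∀ k, bb k ≠ 0 := by
    intro k h
    apply hb0
    have h1 := congrArg (fun y => (f ^ k.val)⁻¹ • y) h
    simpa [bb] using h1
  have hzb : ∀ k, z • bb k = bb k := by
    intro k
    have h1 : z * f ^ k.val = f ^ k.val * z := ((show Commute z f from D.fz.symm).pow_right k.val).eq
    show z • f ^ k.val • b = f ^ k.val • b
    rw [← mul_smul, h1, mul_smul, hb]
  have hfb : ∀ k : ZMod 5, k ≠ 4 → f • bb k = bb (k + 1) := by
    intro k hk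
    have h1 : (k + 1).val = k.val + 1 := val_succ k hk
    show f • f ^ k.val • b = f ^ (k + 1).val • b
    rw [h1, pow_succ', mul_smul]
  set σ : ZMod 5 := s 0 + s 1 + s 2 + s 3 + s 4 with hσd
  set τ : ZMod 5 := ∑ i : ZMod 5, i * s i with hτ
  have hsum : ∑ i : ZMod 5, s i = σ := Fin.sum_univ_five s
  let E : Module.End (ZMod 5) V := ∑ i : ZMod 5, i • T (v i)
  have hE : ∀ k, E (bb k) = (τ + k * σ) • bb k := by
    intro k
    have h1 : E (bb k) = ∑ i : ZMod 5, (i * s (i - k)) • bb k := by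
      show (∑ i : ZMod 5, i • T (v i)) (bb k) = _
      rw [LinearMap.sum_apply]
      refine Finset.sum_congr rfl fun i _ => ?_
      rw [LinearMap.smul_apply, hT, hbb, smul_smul]
    rw [h1, ← Finset.sum_smul]
    congr 1
    rw [← Equiv.sum_comp (Equiv.addRight k) (fun i : ZMod 5 => i * s (i - k))]
    have h2 : ∀ i : ZMod 5, (Equiv.addRight k) i * s ((Equiv.addRight k) i - k) = i * s i + k * s i := by
      intro i
      rw [Equiv.coe_addRight, add_sub_cancel_right]
      ring
    rw [Finset.sum_congr rfl fun i _ => h2 i, Finset.sum_add_distrib, ← Finset.mul_sum, hsum]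
  have hli : LinearIndependent (ZMod 5) bb := by
    refine Module.End.eigenvectors_linearIndependent' E (fun k => τ + k * σ) ?_ bb fun k => ?_
    · intro k k' h
      have h1 : k * σ = k' * σ := add_left_cancel h
      exact mul_right_cancel₀ hσ h1
    · exact ⟨Module.End.mem_eigenspace_iff.2 (hE k), hbb0 k⟩
  -- five independent vectors in the image of `f - 1`
  let w₁ : V := f • w₀ - w₀
  have hw₁ : w₁ ≠ 0 := sub_ne_zero.2 hw1
  have hzw : z • w₁ = -w₁ := by
    show z • (f • w₀ - w₀) = -(f • w₀ - w₀)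
    rw [smul_sub, ← mul_smul, ← D.fz, mul_smul, hw, smul_neg]
    abel
  let uu : Fin 5 → V := ![bb 1 - bb 0, bb 2 - bb 1, bb 3 - bb 2, bb 4 - bb 3, w₁]
  have huu : LinearIndependent (ZMod 5) uu := by
    rw [Fintype.linearIndependent_iff]
    intro g hg
    rw [Fin.sum_univ_five] at hg
    have hg' : g 0 • (bb 1 - bb 0) + g 1 • (bb 2 - bb 1) + g 2 • (bb 3 - bb 2) + g 3 • (bb 4 - bb 3) + g 4 • w₁ = 0 := hg
    have hz' := congrArg (fun y => z • y) hg'
    simp only [smul_add, smul_zero, hsm, smul_sub, hzb, hzw] at hz'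
    have h4 : g 4 • w₁ = 0 := by
      apply eq_zero_of_add h5
      have h1 : g 4 • w₁ + g 4 • w₁ = (g 0 • (bb 1 - bb 0) + g 1 • (bb 2 - bb 1) + g 2 • (bb 3 - bb 2) +
          g 3 • (bb 4 - bb 3) + g 4 • w₁) - (g 0 • bb 1 - g 0 • bb 0 + (g 1 • bb 2 - g 1 • bb 1) +
          (g 2 • bb 3 - g 2 • bb 2) + (g 3 • bb 4 - g 3 • bb 3) + g 4 • -w₁) := by
        simp only [smul_sub, smul_neg]
        abel
      rw [h1, hg', hz', sub_zero]
    have h44 : g 4 = 0 := by
      rcases smul_eq_zero.1 h4 with h | h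
      · exact h
      · exact absurd h hw₁
    rw [h4, add_zero] at hg'
    have hb' := Fintype.linearIndependent_iff.1 hli (![-g 0, g 0 - g 1, g 1 - g 2, g 2 - g 3, g 3] : Fin 5 → ZMod 5) (by
      refine Eq.trans (Fin.sum_univ_five _) ?_
      show (-g 0) • bb 0 + (g 0 - g 1) • bb 1 + (g 1 - g 2) • bb 2 + (g 2 - g 3) • bb 3 + g 3 • bb 4 = 0
      rw [← hg']
      simp only [sub_smul, neg_smul, smul_sub]
      abel)
    have e0 : -g 0 = 0 := hb' 0
    have e1 : g 0 - g 1 = 0 := hb' 1
    have e2 : g 1 - g 2 = 0 := hb' 2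
    have e3 : g 2 - g 3 = 0 := hb' 3
    have g0 : g 0 = 0 := neg_eq_zero.1 e0
    have g1 : g 1 = 0 := by rw [← g0]; exact (sub_eq_zero.1 e1).symm
    have g2 : g 2 = 0 := by rw [← g1]; exact (sub_eq_zero.1 e2).symm
    have g3 : g 3 = 0 := by rw [← g2]; exact (sub_eq_zero.1 e3).symm
    intro i
    fin_cases i
    · exact g0
    · exact g1
    · exact g2
    · exact g3
    · exact h44
  -- the image
  let R := LinearMap.range (T f - 1)
  have hR : ∀ x : V, f • x - x ∈ R := fun x => ⟨x, rfl⟩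
  have hmem : ∀ i, uu i ∈ R := by
    intro i
    fin_cases i
    · have h := hR (bb 0); rw [hfb 0 ne04] at h; exact h
    · have h := hR (bb 1); rw [hfb 1 ne14] at h; exact h
    · have h := hR (bb 2); rw [hfb 2 ne24] at h; exact h
    · have h := hR (bb 3); rw [hfb 3 ne34] at h; exact h
    · exact hR w₀
  have hind : LinearIndependent (ZMod 5) (fun i : Fin 5 => (⟨uu i, hmem i⟩ : R)) :=
    LinearIndependent.of_comp R.subtype huu
  have hfin : Module.Finite (ZMod 5) V := Module.Finite.of_finite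
  have hr : 5 ≤ Module.finrank (ZMod 5) R := by
    have := hind.fintype_card_le_finrank
    simpa using this
  have hrk : Module.finrank (ZMod 5) R + Module.finrank (ZMod 5) (LinearMap.ker (T f - 1)) =
      Module.finrank (ZMod 5) V := LinearMap.finrank_range_add_finrank_ker _
  have hK : Nat.card {x : V // f • x = x} = Nat.card (LinearMap.ker (T f - 1)) := by
    refine Nat.card_congr (Equiv.subtypeEquivRight fun x => ?_)
    rw [LinearMap.mem_ker]
    show f • x = x ↔ f • x - x = 0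
    exact sub_eq_zero.symm
  rw [hK, Module.natCard_eq_pow_finrank (K := ZMod 5) (V := V),
    Module.natCard_eq_pow_finrank (K := ZMod 5) (V := LinearMap.ker (T f - 1)), Nat.card_zmod, ← pow_add]
  exact Nat.pow_le_pow_right (by norm_num) (by omega)

end

/-! ### the union bound -/

section

open Cfsg.Agent.H665.RIM

theorem exists_sylow_le {H : Type*} [Group H] [Finite H] {p : ℕ} [hp : Fact p.Prime] (K : Subgroup H) (hK : ¬ p ∣ K.index) :
    ∃ P : Sylow p H, (P : Subgroup H) ≤ K := by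
  obtain ⟨Q⟩ : Nonempty (Sylow p K) := inferInstance
  obtain ⟨P, hP⟩ := (Q.2.map K.subtype).exists_le_sylow
  have hcard : Nat.card ((Q : Subgroup K).map K.subtype) = Nat.card Q :=
    Subgroup.card_map_of_injective K.subtype_injective
  have h1 : Nat.card P = Nat.card Q := by
    rw [P.card_eq_multiplicity, Q.card_eq_multiplicity]
    congr 1
    rw [← K.card_mul_index, Nat.factorization_mul Nat.card_pos.ne' Subgroup.index_ne_zero_of_finite, Finsupp.add_apply,
      Nat.factorization_eq_zero_of_not_dvd hK, add_zero]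
  refine ⟨P, ?_⟩
  have h2 : (Q : Subgroup K).map K.subtype = P := Subgroup.eq_of_le_of_card_ge hP (by rw [hcard, h1])
  rw [← h2]
  rintro _ ⟨x, -, rfl⟩
  exact x.2

/-- every vector is fixed by a conjugate of `f` in each of the Sylow subgroups: the union bound -/
theorem card_le_mul {H : Type u} [Group H] [Finite H] {V : Type w} [AddCommGroup V] [Finite V] [DistribMulAction H V]
    {p : ℕ} [hp : Fact p.Prime] (hV : ∀ v : V, ¬ p ∣ (MulAction.stabilizer H v).index) {f : H} {n : ℕ}
    (hf : f ^ p ^ n = 1) : Nat.card V ≤ Nat.card (Sylow p H) * Nat.card {x : V // f • x = x} := by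
  classical
  -- a conjugate of `f` in every Sylow subgroup
  have hfp : IsPGroup p (Subgroup.zpowers f) := by
    rintro ⟨_, k, rfl⟩
    refine ⟨n, Subtype.ext ?_⟩
    change (f ^ k) ^ p ^ n = 1
    rw [← zpow_natCast, ← zpow_mul, mul_comm, zpow_mul, zpow_natCast, hf, one_zpow]
  obtain ⟨P₀, hP₀⟩ := hfp.exists_le_sylow
  have hg : ∀ P : Sylow p H, ∃ g : H, g * f * g⁻¹ ∈ (P : Subgroup H) := by
    intro P
    obtain ⟨g, hg⟩ := MulAction.exists_smul_eq H P₀ P
    refine ⟨g, ?_⟩
    rw [← hg, Sylow.coe_subgroup_smul]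
    exact ⟨f, hP₀ (Subgroup.mem_zpowers f), rfl⟩
  choose g hg using hg
  have h1 : ∀ x : V, ∃ P : Sylow p H, (g P * f * (g P)⁻¹) • x = x := by
    intro x
    obtain ⟨P, hP⟩ := exists_sylow_le _ (hV x)
    exact ⟨P, hP (hg P)⟩
  choose P hP using h1
  let F : V → Sylow p H × {x : V // f • x = x} := fun x => (P x, ⟨(g (P x))⁻¹ • x, by
    have h2 := hP x
    calc f • (g (P x))⁻¹ • x = (g (P x))⁻¹ • (g (P x) * f * (g (P x))⁻¹) • x := by
          rw [← mul_smul, ← mul_smul]; congr 1; group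
      _ = (g (P x))⁻¹ • x := by rw [h2]⟩)
  have hF : Function.Injective F := by
    intro x y hxy
    have h2 : P x = P y := congrArg Prod.fst hxy
    have h3 : (g (P x))⁻¹ • x = (g (P y))⁻¹ • y := congrArg (fun q => (Prod.snd q).1) hxy
    rw [h2] at h3
    exact smul_left_cancel _ h3
  have h2 := Nat.card_le_card_of_injective F hF
  rwa [Nat.card_prod] at h2

/-- **No orbit condition.** -/
theorem Dt.noPEx {H : Type u} [Group H] [Finite H] {z f : H} {v : ZMod 5 → H} (D : Dt z f v) (hz1 : z ≠ 1)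
    (hf : f ^ 5 = 1) (hn : Nat.card (Sylow 5 H) < 5 ^ 5) : NoPEx 5 H := by
  intro V _ _ _ h5 _ hfaith _ hV
  have hp : Fact (Nat.Prime 5) := ⟨by norm_num⟩
  have hz : ∃ x : V, z • x ≠ x := by
    by_contra hcon
    push Not at hcon
    exact hz1 (hfaith z hcon)
  have h1 := D.card_fix h5 hz
  have h2 := card_le_mul hV (f := f) (n := 1) (by rwa [pow_one])
  have h3 : 0 < Nat.card {x : V // f • x = x} := by
    have : Nonempty {x : V // f • x = x} := ⟨⟨0, smul_zero f⟩⟩
    exact Nat.card_pos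
  have h4 := h1.trans h2
  rw [mul_comm] at h4
  exact absurd (Nat.le_of_mul_le_mul_right h4 h3) (by omega)

end

end Cfsg.Agent.H315.RIM.Heis
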