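import Cfsg.Agent.H315.RIM.Heis
import Cfsg.Agent.KFacts.J2.Facts
import Cfsg.Agent.J2Type.FiveFus
import Cfsg.Agent.H417.CodCentral
import Cfsg.Agent.S2040

/-!
# S4816: the row `J2`, `p = 5` (helper315)

`EK 5 J2`: `|V : C_V(f)| ≥ 5 ^ 5 > 2016 = n_5` for an element `f` of order 5 of `2^{1+4} : A5`.
-/

set_option autoImplicit false

namespace Cfsg.Agent.H315.RIM.J2

open Subgroup Cfsg Cfsg.Agent.H665.RIM Cfsg.Agent.H229.RIM Cfsg.Agent.J2Type.Model Cfsg.Agent.KFacts.J2.Basic
open Cfsg.Agent.J3Type.OneClass (zc)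
open scoped commutatorElement

universe u

/-- the cycle -/
def gc : SP := ⟨finRotate 5, fun _ => 0⟩

theorem gc_five : gc ^ 5 = 1 := by decide +kernel

theorem gc_sign : Equiv.Perm.sign gc.σ = 1 ∧ ∑ i, gc.s i = 0 := by decide +kernel

/-- the subgroup `2^{1+4} : 5` -/
theorem exists_dt {S : Type u} [Group S] [Finite S] (h : Spor.IsoJ2 S) :
    ∃ (z f : S) (v : ZMod 5 → S), Heis.Dt z f v ∧ z ≠ 1 ∧ f ^ 5 = 1 := by
  obtain ⟨t, u, Q, v, ρ, D⟩ := Cfsg.Agent.KFacts.J2.Facts.exists_dat_of h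
  obtain ⟨c, hc⟩ := (D.M.range gc).2 gc_sign
  have hzc : ∀ x : centralizer ({t} : Set S), x * zc t = zc t * x := D.M.z_comm
  have hc5 : c ^ 5 = 1 ∨ c ^ 5 = zc t := (D.M.ker (c ^ 5)).1 (by rw [map_pow, hc, gc_five])
  obtain ⟨f, hf5, hfv⟩ : ∃ f : centralizer ({t} : Set S), f ^ 5 = 1 ∧ ∀ i : Fin 5, f * v i = v (i + 1) * f := by
    have hcv : ∀ i : Fin 5, c * v i = v (i + 1) * c := by
      intro i
      have h1 := D.M.conj c i
      rw [hc] at h1
      have h2 : gc.s i = 0 := rfl
      have h3 : gc.σ i = i + 1 := finRotate_apply i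
      rw [h2, h3, zp_zero, one_mul, mul_inv_eq_iff_eq_mul] at h1
      exact h1
    rcases hc5 with h5 | h5
    · exact ⟨c, h5, hcv⟩
    · refine ⟨c * zc t, ?_, fun i => ?_⟩
      · have h6 : Commute c (zc t) := hzc c
        rw [h6.mul_pow, h5]
        have h7 : zc t * zc t = 1 := D.M.z_sq
        have h8 : zc t ^ 6 = (zc t * zc t) ^ 3 := by rw [← pow_two, ← pow_mul]
        rw [← pow_succ', h8, h7, one_pow]
      · rw [mul_assoc, ← hzc (v i), ← mul_assoc, hcv, mul_assoc]
  refine ⟨t, f, fun i => (v i : S), ⟨D.tt, fun i => D.vv i, fun i => D.vt i, ?_, fun i j hij => D.v_anti hij, ?_, ?_, ?_⟩,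
    D.t_ne, ?_⟩
  · exact mem_centralizer_singleton_iff.1 f.2
  · exact congrArg Subtype.val D.M.v_prod
  · intro i
    exact congrArg Subtype.val (hfv i)
  · have h1 := D.isConj_zv 0 0
    rw [zp_zero, one_mul] at h1
    exact h1
  · exact congrArg Subtype.val hf5

theorem card_sylow_five {S : Type u} [Group S] [Finite S] (h : Spor.IsoJ2 S) : Nat.card (Sylow 5 S) = 2016 := by
  have hp : Fact (Nat.Prime 5) := ⟨by norm_num⟩
  obtain ⟨t, u, Q, v, ρ, D⟩ := Cfsg.Agent.KFacts.J2.Facts.exists_dat_of h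
  obtain ⟨P⟩ : Nonempty (Sylow 5 S) := inferInstance
  have h1 := (Cfsg.Agent.J2Type.FiveFus.sylow_five D.F P).2.2.1
  have h2 : Nat.card (Sylow 5 S) = (normalizer ((P : Subgroup S) : Set S)).index := P.card_eq_index_normalizer
  have h3 := (normalizer ((P : Subgroup S) : Set S)).card_mul_index
  rw [h1, Cfsg.Agent.J2Type.Order.card_of_fus D.F, ← h2] at h3
  omega

/-- **no faithful module with orbits of size prime to 5** -/
theorem noPEx {S : Type u} [Group S] [Finite S] (h : Spor.IsoJ2 S) : NoPEx 5 S := by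
  obtain ⟨z, f, v, D, hz, hf⟩ := exists_dt h
  exact D.noPEx hz hf (by rw [card_sylow_five h]; norm_num)

end Cfsg.Agent.H315.RIM.J2

namespace Cfsg.Agent.H315.RIM

open Subgroup Cfsg Cfsg.Agent.H665.RIM Cfsg.Agent.H229.RIM
open scoped commutatorElement

universe u

/-- `[K, H]` central and `H` perfect: `K` is central -/
theorem le_center_of_perf {H : Type*} [Group H] (hperf : commutator H = ⊤) {K N : Subgroup H} (hN : N ≤ center H)
    (h : ∀ k ∈ K, ∀ x : H, ⁅k, x⁆ ∈ N) : K ≤ center H := by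
  intro k hk
  let φ : H →* center H := MonoidHom.mk' (fun x => ⟨⁅k, x⁆, hN (h k hk x)⟩) (by
    intro a b
    apply Subtype.ext
    show ⁅k, a * b⁆ = ⁅k, a⁆ * ⁅k, b⁆
    have h1 : ⁅k, b⁆ * a = a * ⁅k, b⁆ := (mem_center_iff.1 (hN (h k hk b)) a).symm
    calc ⁅k, a * b⁆ = ⁅k, a⁆ * (a * ⁅k, b⁆) * a⁻¹ := by rw [commutatorElement_def, commutatorElement_def, commutatorElement_def]; group
      _ = ⁅k, a⁆ * (⁅k, b⁆ * a) * a⁻¹ := by rw [h1]
      _ = ⁅k, a⁆ * ⁅k, b⁆ := by group)
  have h2 : φ.ker = ⊤ := by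
    rw [eq_top_iff, ← hperf, commutator_def, commutator_le]
    intro a _ b _
    rw [MonoidHom.mem_ker, map_commutatorElement, commutatorElement_eq_one_iff_mul_comm]
    exact Subtype.ext (mem_center_iff.1 (φ b).2 _)
  rw [mem_center_iff]
  intro g
  have h3 : g ∈ φ.ker := by rw [h2]; exact mem_top g
  have h4 : ⁅k, g⁆ = 1 := congrArg Subtype.val (MonoidHom.mem_ker.1 h3)
  exact (commutatorElement_eq_one_iff_mul_comm.1 h4).symm

/-- **`EK p S` from `NoPEx p S`**, if the kernels of the perfect central extensions of `S` have order `1` or a prime. -/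
theorem ek_of_noPEx {p : ℕ} {S : Type u} [Group S] [Finite S]
    (hM : ∀ (E : Type u) [Group E] [Finite E] (π : E →* S), Function.Surjective π → π.ker ≤ center E →
      commutator E = ⊤ → ¬ p ∣ Nat.card π.ker → Nat.card π.ker = 1 ∨ (Nat.card π.ker).Prime) (h : NoPEx p S) :
    EK p S := by
  intro H V _ _ _ _ _ K N φ π C hπ hker hcom
  have hKZ : K ≤ center H := le_center_of_perf C.perf C.cen hcom
  have hK : Nat.card K = 1 ∨ (Nat.card K).Prime := by
    have h1 := hM H π hπ (by rw [hker]; exact hKZ) C.perf (by rw [hker]; exact C.pK)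
    rwa [hker] at h1
  have hNK : N = K := by
    refine eq_of_le_of_card_ge C.NK ?_
    have h1 : Nat.card N ∣ Nat.card K := card_dvd_of_le C.NK
    have h2 : Nat.card N ≠ 1 := fun h2 => C.Nne (card_eq_one.1 h2)
    rcases hK with h3 | h3
    · rw [h3] at h1 ⊢
      exact (Nat.card_pos : 0 < Nat.card N)
    · rcases (Nat.dvd_prime h3).1 h1 with h4 | h4
      · exact absurd h4 h2
      · exact h4.ge
  -- the action of `S`
  have hψ : ∀ x y : H, π x = π y → ∀ w : V, x • w = y • w := by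
    intro x y hxy w
    have h1 : y⁻¹ * x ∈ N := by
      rw [hNK, ← hker, MonoidHom.mem_ker, map_mul, map_inv, hxy, inv_mul_cancel]
    have h2 := (C.ker _).2 h1 w
    calc x • w = y • ((y⁻¹ * x) • w) := by rw [smul_smul, mul_inv_cancel_left]
      _ = y • w := by rw [h2]
  let r : S → H := Function.surjInv hπ
  have hr : ∀ s, π (r s) = s := Function.surjInv_eq hπ
  let _ : DistribMulAction S V :=
    { smul := fun s w => r s • w
      one_smul := fun w => by
        show r 1 • w = w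
        rw [hψ (r 1) 1 (by rw [hr, map_one]), one_smul]
      mul_smul := fun s s' w => by
        show r (s * s') • w = r s • r s' • w
        rw [hψ (r (s * s')) (r s * r s') (by rw [map_mul, hr, hr, hr]), mul_smul]
      smul_zero := fun s => by
        show r s • (0 : V) = 0
        rw [smul_zero]
      smul_add := fun s a b => by
        show r s • (a + b) = r s • a + r s • b
        rw [smul_add] }
  have hsm : ∀ (x : H) (w : V), π x • w = x • w := fun x w => hψ (r (π x)) x (hr _) w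
  refine h V C.exp C.nt ?_ ?_ ?_
  · intro s hs
    obtain ⟨x, rfl⟩ := hπ s
    have h1 : x ∈ N := (C.ker x).1 fun w => by rw [← hsm]; exact hs w
    rw [hNK, ← hker] at h1
    exact h1
  · intro W hW
    refine C.irr W fun x w hw => ?_
    rw [← hsm]
    exact hW _ w hw
  · intro w hw
    apply C.P1 w
    have h1 : (MulAction.stabilizer S w).comap π = MulAction.stabilizer H w := by
      ext x
      rw [mem_comap, MulAction.mem_stabilizer_iff, MulAction.mem_stabilizer_iff, hsm]
    rw [← h1, index_comap_of_surjective _ hπ]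
    exact hw

/-- **(J2, 5)** -/
theorem ek_j2_5 {S : Type u} [Group S] [Finite S] (h : Spor.IsoJ2 S) : EK 5 S := by
  refine ek_of_noPEx ?_ (J2.noPEx h)
  intro E _ _ π hπ hc hperf _
  obtain ⟨e⟩ := h
  have h1 := Cfsg.Agent.H417.CodCentral.card_dvd_mult Cfsg.Agent.S2040.result π.ker
    ((QuotientGroup.quotientKerEquivOfSurjective π hπ).trans e) hperf hc
  rcases (Nat.dvd_prime Nat.prime_two).1 h1 with h2 | h2
  · exact Or.inl h2
  · right
    rw [h2]
    exact Nat.prime_two

end Cfsg.Agent.H315.RIM
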