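import Cfsg.Agent.H315.RIM.J2Ten
import Cfsg.Agent.H620.RIM.AFour

/-!
# S4816: the row `J2`, `p = 3` (helper315)
-/

set_option autoImplicit false

namespace Cfsg.Agent.H315.RIM.J2Three

open Subgroup Cfsg Cfsg.Agent.H665.RIM Cfsg.Agent.H620.RIM
open Cfsg.Agent.J2Type.Base Cfsg.Agent.J2Type.HStr Cfsg.Agent.J2Type.CentU Cfsg.Agent.J2Type.SylowFive

universe u

variable {G : Type*} [Group G] [Finite G] {z u : G}

/-- the centralizer of an element of the second class of elements of order 3 -/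
theorem facts (h : Fus z u) : ∃ (f d : G) (V : Subgroup G), orderOf f = 3 ∧
    Nat.card (centralizer ({f} : Set G)) = 36 ∧ Nat.card V = 4 ∧ V ≤ centralizer ({f} : Set G) ∧
    d ^ 3 = 1 ∧ d ∈ centralizer ({f} : Set G) ∧ (∀ v ∈ V, d * v * d⁻¹ ∈ V) ∧ (∃ v ∈ V, d * v ≠ v * d) := by
  obtain ⟨f, U, V, H0, F⟩ := Cfsg.Agent.J2Type.CentU.main h
  obtain ⟨d, hd, hdV, hdH⟩ := Cfsg.Agent.J2Type.ThreeA.exists_d h F
  have h60 := Cfsg.Agent.J2Type.ThreeA.card_H0 h F
  refine ⟨f, d, V, F.f_ord, Cfsg.Agent.J2Type.ThreeD.card_centralizer_f h F hd hdH, F.cardV, ?_, ?_, ?_, hdV, ?_⟩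
  · intro v hv
    exact mem_centralizer_singleton_iff.2 ((F.memV v).1 hv).2.2
  · rw [← hd]
    exact pow_orderOf_eq_one d
  · exact mem_centralizer_singleton_iff.2 (hdH f F.f_mem)
  · by_contra hcon
    push Not at hcon
    obtain ⟨a, ha, b, hb, hab⟩ := Cfsg.Agent.J2Type.Cent5.exists_mul F
      (mem_centralizer_singleton_iff.2 (hcon u F.uV) : d ∈ centralizer ({u} : Set G))
    have hb' : ∀ x ∈ H0, b * x = x * b := by
      intro x hx
      have h1 := Cfsg.Agent.J2Type.Cent5.V_comm h F h60 ha hx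
      have h2 := hdH x hx
      have h3 : b = a⁻¹ * d := by rw [hab]; group
      rw [h3]
      have h4 : a⁻¹ * x = x * a⁻¹ := (show Commute a x from h1).inv_left
      calc a⁻¹ * d * x = a⁻¹ * (d * x) := by group
        _ = (a⁻¹ * x) * d := by rw [h2]; group
        _ = x * (a⁻¹ * d) := by rw [h4]; group
    have hb1 : b = 1 := by
      by_contra hne
      exact F.f_ne b (F.cap b hb (hb' z (F.U_le F.zU))) hne (hb' f F.f_mem).symm
    rw [hb1, mul_one] at hab
    have h2 := Cfsg.Agent.J2Type.Cent5.sq_V h F ha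
    rw [← hab] at h2
    have h3 : orderOf d ∣ 2 := orderOf_dvd_of_pow_eq_one (by rw [pow_two]; exact h2)
    rw [hd] at h3
    norm_num at h3

/-- **`J2`, `p = 3`, kernel of order 2** -/
theorem nb {S : Type u} [Group S] [Finite S] (h : Spor.IsoJ2 S) : NB 3 2 S := by
  obtain ⟨t, v, Q, v', ρ, D⟩ := Cfsg.Agent.KFacts.J2.Facts.exists_dat_of h
  obtain ⟨f, d, V, hf, h36, hV4, hVf, hd3, hdf, hdV, hne⟩ := facts D.F
  obtain ⟨F, hF10, hF⟩ := Cfsg.Agent.H315.RIM.J2Ten.exists_ten D.F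
  exact nb_three_of_four hf h36 ⟨hV4, hd3, hdV, hne⟩ (fun v hv => mem_centralizer_singleton_iff.1 (hVf hv))
    (mem_centralizer_singleton_iff.1 hdf) F (fun C hC => by
      obtain ⟨g, hg, hg2⟩ := hF C hC
      exact ⟨g, hg, mGood_of_coprime hg2⟩) hF10.ge

/-- **(J2, 3)** -/
theorem nball_j2_3 {S : Type u} [Group S] [Finite S] (h : Spor.IsoJ2 S) : NBall 3 S := by
  intro m hm2 hm3 E _ _ π hπ hc hperf hm l hl
  have h' := h
  obtain ⟨e⟩ := h'
  have h1 := Cfsg.Agent.H417.CodCentral.card_dvd_mult Cfsg.Agent.S2040.result π.ker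
    ((QuotientGroup.quotientKerEquivOfSurjective π hπ).trans e) hperf hc
  rw [hm] at h1
  obtain rfl : m = 2 := le_antisymm (Nat.le_of_dvd two_pos h1) hm2
  exact nb h E π hπ hc hperf hm l hl

end Cfsg.Agent.H315.RIM.J2Three
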